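import Cfsg.Agent.H533.Wf.Inner

/-!
# `IRow p K` for isomorphic groups (helper800, for S3826)
-/

set_option autoImplicit false

namespace Cfsg.Agent.H800.Wf

universe u v

open Subgroup Cfsg Cfsg.Agent.H533.Wf

theorem cfg_congr {p : ℕ} {K : Type u} {K' : Type v} [Group K] [Finite K] [Group K'] (e : K ≃* K')
    {C D : Set K'} (h : Cfg p (⊤ : Subgroup K') C D) : Cfg p (⊤ : Subgroup K) (e ⁻¹' C) (e ⁻¹' D) where
  toHyp := h.toHyp.comap e.toMonoidHom e.injective
  ordC := fun c hc => by rw [← orderOf_injective e.toMonoidHom e.injective]; exact h.ordC _ hc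
  ordD := fun c hc => by rw [← orderOf_injective e.toMonoidHom e.injective]; exact h.ordD _ hc
  neC := by
    obtain ⟨c, hc⟩ := h.neC
    exact ⟨e.symm c, by show e (e.symm c) ∈ C; rwa [e.apply_symm_apply]⟩
  neD := by
    obtain ⟨c, hc⟩ := h.neD
    exact ⟨e.symm c, by show e (e.symm c) ∈ D; rwa [e.apply_symm_apply]⟩
  normal := inferInstance
  simple := by
    have := h.simple
    exact (Subgroup.topEquiv.trans (e.trans Subgroup.topEquiv.symm)).isSimpleGroup
  nc := by
    intro hc
    apply h.nc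
    refine ⟨⟨fun a b => Subtype.ext ?_⟩⟩
    have h1 := congrArg Subtype.val (hc.is_comm.comm (⟨e.symm a, mem_top _⟩ : (⊤ : Subgroup K))
      ⟨e.symm b, mem_top _⟩)
    have h2 : e (e.symm (a : K') * e.symm (b : K')) = e (e.symm (b : K') * e.symm (a : K')) := congrArg e h1
    rw [map_mul, map_mul, e.apply_symm_apply, e.apply_symm_apply] at h2
    exact h2
  dvd := by
    have h1 := h.dvd
    rw [Subgroup.card_top] at h1 ⊢
    rwa [Nat.card_congr e.toEquiv]
  cent := by
    rw [eq_bot_iff]
    intro x hx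
    rw [mem_bot]
    apply e.injective
    rw [map_one]
    have h1 : e x ∈ Subgroup.centralizer ((⊤ : Subgroup K') : Set K') := by
      rw [mem_centralizer_iff] at hx ⊢
      intro y _
      have h2 := congrArg e (hx (e.symm y) (mem_top _))
      rwa [map_mul, map_mul, e.apply_symm_apply] at h2
    rw [h.cent, mem_bot] at h1
    exact h1
  ih := by
    intro X _ _ hX
    obtain ⟨Y, _, _, ⟨f⟩⟩ := exists_copy.{v, u} X
    refine Thm.congr f (h.ih Y ?_)
    rwa [Nat.card_congr f.toEquiv, ← Nat.card_congr e.toEquiv]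

theorem irow_congr {p : ℕ} {K : Type u} {K' : Type v} [Group K] [Finite K] [Group K'] (e : K ≃* K')
    (h : IRow p K) : IRow p K' := fun _ _ hc => h _ _ (cfg_congr e hc)

end Cfsg.Agent.H800.Wf
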