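import Mathlib

/-!
# An orbit lemma (helper800, for S3826)

`Q ⊴ M` of odd order with Sylow 3-subgroup of order 81, no involution of `M` commutes with a 3-element `≠ 1` of `Q`, `8 ∣ |M|`,
and `M` is generated modulo `Q` by elements of order 5: then the 3-elements `≠ 1` of `Q` form at most two classes of `M`.
-/

set_option autoImplicit false
set_option linter.unusedSectionVars false
set_option maxHeartbeats 2000000

namespace Cfsg.Agent.H800.Wf.Orb

open Subgroup

variable {M : Type*} [Group M] [Finite M]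

/-- the action of the normalizer -/
noncomputable local instance act (T : Subgroup M) : MulAction ↥(normalizer (T : Set M)) ↥T :=
  MulAction.compHom ↥T (Subgroup.normalizerMonoidHom T)

theorem coe_smul (T : Subgroup M) (n : ↥(normalizer (T : Set M))) (t : T) :
    ((n • t : T) : M) = n * t * (n : M)⁻¹ := rfl

theorem odd_of_not_even {n : ℕ} (h : ¬ 2 ∣ n) : Odd n := by
  rw [← Nat.not_even_iff_odd, even_iff_two_dvd]; exact h

/-- elements of order 5 lie in the normal subgroups of index prime to 5 -/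
theorem mem_of_index {L : Subgroup M} [L.Normal] (h5 : ¬ 5 ∣ L.index) {f : M} (hf : f ^ 5 = 1) : f ∈ L := by
  rw [← QuotientGroup.eq_one_iff]
  have h1 : (QuotientGroup.mk f : M ⧸ L) ^ 5 = 1 := by rw [← QuotientGroup.mk_pow, hf, QuotientGroup.mk_one]
  have h2 : orderOf (QuotientGroup.mk f : M ⧸ L) ∣ 5 := orderOf_dvd_of_pow_eq_one h1
  have h3 : orderOf (QuotientGroup.mk f : M ⧸ L) ∣ L.index := orderOf_dvd_natCard _
  rcases (Nat.dvd_prime Nat.prime_five).1 h2 with h | h
  · exact orderOf_eq_one_iff.1 h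
  · exact absurd (h ▸ h3) h5

theorem card_orbit (T : Subgroup M) (t : T) :
    Nat.card (MulAction.orbit ↥(normalizer (T : Set M)) t) *
      Nat.card (MulAction.stabilizer ↥(normalizer (T : Set M)) t) = Nat.card ↥(normalizer (T : Set M)) := by
  rw [← Nat.card_prod]
  exact Nat.card_congr (MulAction.orbitProdStabilizerEquivGroup _ t)

/-- the orbits are divisible by 8 -/
theorem eight_dvd (T : Subgroup M) (h8 : 8 ∣ Nat.card ↥(normalizer (T : Set M))) (t : T)
    (ha : ∀ i : M, orderOf i = 2 → i * t ≠ t * i) :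
    8 ∣ Nat.card (MulAction.orbit ↥(normalizer (T : Set M)) t) := by
  have hodd : Odd (Nat.card (MulAction.stabilizer ↥(normalizer (T : Set M)) t)) := by
    apply odd_of_not_even
    intro h2
    have : Fact (Nat.Prime 2) := ⟨Nat.prime_two⟩
    obtain ⟨i, hi⟩ := exists_prime_orderOf_dvd_card' 2 h2
    refine ha ((i : ↥(normalizer (T : Set M))) : M) (by rw [Subgroup.orderOf_coe, Subgroup.orderOf_coe]; exact hi) ?_
    have h3 := congrArg Subtype.val (MulAction.mem_stabilizer_iff.1 i.2)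
    rw [coe_smul] at h3
    exact mul_inv_eq_iff_eq_mul.1 h3
  have h1 := card_orbit T t
  have h2 : Nat.Coprime 8 (Nat.card (MulAction.stabilizer ↥(normalizer (T : Set M)) t)) := by
    rw [show (8 : ℕ) = 2 ^ 3 by norm_num]
    exact Nat.Coprime.pow_left 3 (Nat.coprime_two_left.2 hodd)
  rw [← h1] at h8
  exact h2.dvd_of_dvd_mul_right h8

/-- a 5-group which fixes a point `≠ 1` centralises the group of order 81 -/
theorem centralizes (T : Subgroup M) (hT : Nat.card T = 81) (F : Subgroup ↥(normalizer (T : Set M)))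
    (hF : IsPGroup 5 F) {t : T} (ht : t ≠ 1) (hft : ∀ f ∈ F, f • t = t) : ∀ f ∈ F, ∀ x : T, f • x = x := by
  have : Fact (Nat.Prime 5) := ⟨Nat.prime_five⟩
  let D : Subgroup T :=
    { carrier := {x | ∀ f ∈ F, f • x = x}
      one_mem' := fun f _ => Subtype.ext (by rw [coe_smul]; simp)
      mul_mem' := fun {a b} ha hb f hf => Subtype.ext (by
        have h1 := congrArg Subtype.val (ha f hf)
        have h2 := congrArg Subtype.val (hb f hf)
        rw [coe_smul] at h1 h2 ⊢
        calc (f : M) * (a * b : T) * (f : M)⁻¹ = ((f : M) * a * (f : M)⁻¹) * ((f : M) * b * (f : M)⁻¹) := by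
              rw [Subgroup.coe_mul]; group
          _ = _ := by rw [h1, h2, Subgroup.coe_mul])
      inv_mem' := fun {a} ha f hf => Subtype.ext (by
        have h1 := congrArg Subtype.val (ha f hf)
        rw [coe_smul] at h1 ⊢
        calc (f : M) * (a⁻¹ : T) * (f : M)⁻¹ = ((f : M) * a * (f : M)⁻¹)⁻¹ := by
              rw [Subgroup.coe_inv]; group
          _ = _ := by rw [h1, Subgroup.coe_inv]) }
  have h1 : Nat.card T ≡ Nat.card (MulAction.fixedPoints F T) [MOD 5] := hF.card_modEq_card_fixedPoints T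
  have h2 : Nat.card (MulAction.fixedPoints F T) = Nat.card D := by
    refine Nat.card_congr (Equiv.subtypeEquivRight fun x => ?_)
    constructor
    · intro h f hf
      exact h ⟨f, hf⟩
    · intro h f
      exact h f f.2
  have h3 : Nat.card D ∣ 3 ^ 4 := by
    have := D.card_subgroup_dvd_card
    rwa [hT] at this
  obtain ⟨j, hj, hD⟩ := (Nat.dvd_prime_pow Nat.prime_three).1 h3
  rw [h2, hD, hT] at h1
  have h4 : j ≠ 0 := by
    rintro rfl
    rw [pow_zero, Subgroup.card_eq_one] at hD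
    have h5 : t ∈ D := hft
    rw [hD] at h5
    exact ht (Subgroup.mem_bot.1 h5)
  have h5 : j = 4 := by
    have h6 : 81 % 5 = 3 ^ j % 5 := h1
    interval_cases j <;> simp at h6 h4 ⊢
  have h6 : D = ⊤ := Subgroup.eq_top_of_card_eq D (by rw [hD, h5, hT]; norm_num)
  intro f hf x
  have h7 : x ∈ D := by rw [h6]; exact Subgroup.mem_top x
  exact h7 f hf

/-- the orbits are divisible by 5 -/
theorem five_dvd (Q : Subgroup M) [hQn : Q.Normal] (hQ : Odd (Nat.card Q))
    (ha : ∀ i : M, orderOf i = 2 → ∀ t ∈ Q, (∃ k, t ^ 3 ^ k = 1) → i * t = t * i → t = 1)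
    {f₁ f₂ : M} (h1 : f₁ ^ 5 = 1) (h2 : f₂ ^ 5 = 1) (h12 : ¬ Odd (orderOf (f₁ * f₂)))
    (T : Subgroup M) (hT : Nat.card T = 81) (hTQ : T ≤ Q) (hN : normalizer (T : Set M) ⊔ Q = ⊤) {t : T} (ht : t ≠ 1) :
    5 ∣ Nat.card (MulAction.orbit ↥(normalizer (T : Set M)) t) := by
  have : Fact (Nat.Prime 5) := ⟨Nat.prime_five⟩
  have : Fact (Nat.Prime 2) := ⟨Nat.prime_two⟩
  by_contra h5
  -- a Sylow 5-subgroup of the stabilizer
  obtain ⟨F₀⟩ : Nonempty (Sylow 5 ↥(MulAction.stabilizer ↥(normalizer (T : Set M)) t)) := Sylow.nonempty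
  set F : Subgroup ↥(normalizer (T : Set M)) :=
    (F₀ : Subgroup _).map (MulAction.stabilizer ↥(normalizer (T : Set M)) t).subtype with hF
  have hFp : IsPGroup 5 F := F₀.2.map _
  have hFt : ∀ f ∈ F, f • t = t := by
    rintro _ ⟨f, -, rfl⟩
    exact MulAction.mem_stabilizer_iff.1 f.2
  have hFi : ¬ 5 ∣ F.index := by
    intro h
    have h3 := F.card_mul_index
    have h4 : Nat.card F = Nat.card (F₀ : Subgroup ↥(MulAction.stabilizer ↥(normalizer (T : Set M)) t)) :=
      card_map_of_injective (Subgroup.subtype_injective _)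
    have h6 : ¬ 5 ∣ (F₀ : Subgroup ↥(MulAction.stabilizer ↥(normalizer (T : Set M)) t)).index := F₀.not_dvd_index
    have h7 := (F₀ : Subgroup ↥(MulAction.stabilizer ↥(normalizer (T : Set M)) t)).card_mul_index
    rw [← card_orbit T t, ← h7, h4] at h3
    have hpos : 0 < Nat.card (F₀ : Subgroup ↥(MulAction.stabilizer ↥(normalizer (T : Set M)) t)) := Nat.card_pos
    generalize Nat.card (F₀ : Subgroup ↥(MulAction.stabilizer ↥(normalizer (T : Set M)) t)) = a at h3 hpos
    generalize (F₀ : Subgroup ↥(MulAction.stabilizer ↥(normalizer (T : Set M)) t)).index = b at h3 h6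
    generalize Nat.card (MulAction.orbit ↥(normalizer (T : Set M)) t) = c at h3 h5
    generalize F.index = d at h3 h
    have h8 : d = c * b := by
      apply Nat.eq_of_mul_eq_mul_left hpos
      rw [h3]; ring
    rw [h8, Nat.prime_five.dvd_mul] at h
    exact h.elim h5 h6
  have hcen := centralizes T hT F hFp ht hFt
  -- the centralizer
  set K : Subgroup M := centralizer (T : Set M) with hK
  have hKn : ∀ n ∈ normalizer (T : Set M), ∀ x ∈ K, n * x * n⁻¹ ∈ K := by
    intro n hn x hx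
    rw [hK, mem_centralizer_iff] at hx ⊢
    intro s hs
    have h3 : n⁻¹ * s * n ∈ T := by
      have := (mem_normalizer_iff.1 (inv_mem hn) s).1 hs
      rwa [inv_inv] at this
    have h4 := hx _ h3
    calc s * (n * x * n⁻¹) = n * (n⁻¹ * s * n * x) * n⁻¹ := by group
      _ = n * (x * (n⁻¹ * s * n)) * n⁻¹ := by rw [h4]
      _ = _ := by group
  let L : Subgroup M := Q ⊔ K
  have hLN : normalizer (L : Set M) = ⊤ := by
    rw [eq_top_iff, ← hN, sup_le_iff]
    constructor
    · intro n hn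
      have key : ∀ m ∈ normalizer (T : Set M), ∀ x ∈ L, m * x * m⁻¹ ∈ L := by
        intro m hm x hx
        have h3 : L ≤ L.comap (MulAut.conj m).toMonoidHom := by
          refine sup_le (fun y hy => ?_) (fun y hy => ?_)
          · exact mem_sup_left (hQn.conj_mem y hy m)
          · exact mem_sup_right (hKn m hm y hy)
        exact h3 hx
      rw [mem_normalizer_iff]
      intro x
      refine ⟨key n hn x, fun hx => ?_⟩
      have h3 := key n⁻¹ (inv_mem hn) _ hx
      have h4 : n⁻¹ * (n * x * n⁻¹) * n⁻¹⁻¹ = x := by group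
      rwa [h4] at h3
    · exact le_sup_left.trans Subgroup.le_normalizer
  have hLn : L.Normal := normalizer_eq_top_iff.1 hLN
  have hLi : ¬ 5 ∣ L.index := by
    intro h
    apply hFi
    refine h.trans ?_
    have hNL : normalizer (T : Set M) ⊔ L = ⊤ := by
      rw [eq_top_iff, ← hN]; exact sup_le_sup_left le_sup_left _
    have h3 : L.relIndex (normalizer (T : Set M) ⊔ L) = L.relIndex (normalizer (T : Set M)) :=
      relIndex_sup_right _ _
    rw [hNL, relIndex_top_right] at h3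
    have h4 : F.index = (F.map (normalizer (T : Set M)).subtype).relIndex (normalizer (T : Set M)) := by
      rw [relIndex, ← comap_subtype, comap_map_eq_self_of_injective (Subgroup.subtype_injective _)]
    rw [h3, h4]
    apply relIndex_dvd_of_le_left
    rintro _ ⟨f, hf, rfl⟩
    apply mem_sup_right
    rw [hK, mem_centralizer_iff]
    intro s hs
    have h5 := congrArg Subtype.val (hcen f hf ⟨s, hs⟩)
    rw [coe_smul] at h5
    exact (mul_inv_eq_iff_eq_mul.1 h5).symm
  have hf := mul_mem (mem_of_index hLi h1) (mem_of_index hLi h2)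
  -- `K` has even order
  have hKe : 2 ∣ Nat.card K := by
    by_contra hK2
    apply h12
    have h3 : Odd (Nat.card L) := by
      have h4 : Nat.card L = Nat.card Q * Q.relIndex K := by
        have h5 := relIndex_mul_relIndex ⊥ Q L bot_le le_sup_left
        rw [relIndex_bot_left, relIndex_bot_left] at h5
        rw [← h5, show L = K ⊔ Q from sup_comm _ _, relIndex_sup_right]
      rw [h4]
      refine hQ.mul (Odd.of_dvd_nat (odd_of_not_even hK2) ?_)
      exact relIndex_dvd_card Q K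
    refine Odd.of_dvd_nat h3 ?_
    have h4 := orderOf_dvd_natCard (⟨f₁ * f₂, hf⟩ : L)
    rwa [← Subgroup.orderOf_coe] at h4
  obtain ⟨i, hi⟩ := exists_prime_orderOf_dvd_card' 2 hKe
  apply ht
  apply Subtype.ext
  refine ha (i : M) (by rw [Subgroup.orderOf_coe]; exact hi) t (hTQ t.2) ?_ ?_
  · refine ⟨4, ?_⟩
    have h3 : t ^ Nat.card T = 1 := pow_card_eq_one'
    rw [hT] at h3
    have h4 := congrArg Subtype.val h3
    rw [show (3 : ℕ) ^ 4 = 81 by norm_num]
    exact h4
  · exact (mem_centralizer_iff.1 i.2 _ t.2).symm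

/-- 3-elements of `Q` are conjugate into the Sylow subgroup -/
theorem exists_conj (Q : Subgroup M) [Q.Normal] (T : Sylow 3 Q) {y : M} (hy : y ∈ Q) (hy3 : ∃ k, y ^ 3 ^ k = 1) :
    ∃ g : M, g * y * g⁻¹ ∈ (T : Subgroup Q).map Q.subtype := by
  have : Fact (Nat.Prime 3) := ⟨Nat.prime_three⟩
  obtain ⟨k, hk⟩ := hy3
  have h1 : IsPGroup 3 (zpowers (⟨y, hy⟩ : Q)) := by
    rw [IsPGroup.iff_card]
    rw [Nat.card_zpowers]
    have h2 : orderOf (⟨y, hy⟩ : Q) ∣ 3 ^ k := orderOf_dvd_of_pow_eq_one (Subtype.ext hk)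
    obtain ⟨j, -, hj⟩ := (Nat.dvd_prime_pow Nat.prime_three).1 h2
    exact ⟨j, hj⟩
  obtain ⟨P, hP⟩ := h1.exists_le_sylow
  obtain ⟨g, hg⟩ := MulAction.exists_smul_eq Q P T
  refine ⟨g, g * ⟨y, hy⟩ * g⁻¹, ?_, rfl⟩
  rw [← hg]
  exact Subgroup.smul_mem_pointwise_smul _ (MulAut.conj g) _ (hP (mem_zpowers _))

/-- **The orbit lemma.** -/
theorem main (Q : Subgroup M) [hQn : Q.Normal] (hQ : Odd (Nat.card Q)) (hT : (Nat.card Q).factorization 3 = 4)
    (ha : ∀ i : M, orderOf i = 2 → ∀ t ∈ Q, (∃ k, t ^ 3 ^ k = 1) → i * t = t * i → t = 1)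
    (h8 : 8 ∣ Nat.card M) {f₁ f₂ : M} (h1 : f₁ ^ 5 = 1) (h2 : f₂ ^ 5 = 1) (h12 : ¬ Odd (orderOf (f₁ * f₂)))
    {y w t : M} (hy : y ∈ Q) (hw : w ∈ Q) (ht : t ∈ Q) (hy3 : ∃ k, y ^ 3 ^ k = 1) (hw3 : ∃ k, w ^ 3 ^ k = 1)
    (ht3 : ∃ k, t ^ 3 ^ k = 1) (hy1 : y ≠ 1) (hw1 : w ≠ 1) (ht1 : t ≠ 1) (hyw : ¬ IsConj y w) :
    IsConj y t ∨ IsConj w t := by
  have : Fact (Nat.Prime 3) := ⟨Nat.prime_three⟩
  by_contra hno
  rw [not_or] at hno
  obtain ⟨T₀⟩ : Nonempty (Sylow 3 Q) := Sylow.nonempty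
  obtain ⟨gy, hgy⟩ := exists_conj Q T₀ hy hy3
  obtain ⟨gw, hgw⟩ := exists_conj Q T₀ hw hw3
  obtain ⟨gt, hgt⟩ := exists_conj Q T₀ ht ht3
  have hN := Sylow.normalizer_sup_eq_top (N := Q) T₀
  have hcard : Nat.card ↥((T₀ : Subgroup Q).map Q.subtype) = 81 := by
    rw [card_map_of_injective (Subgroup.subtype_injective _), T₀.card_eq_multiplicity, hT]
    norm_num
  have hle : (T₀ : Subgroup Q).map Q.subtype ≤ Q := map_subtype_le _
  generalize (T₀ : Subgroup Q).map Q.subtype = T at *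
  -- the normalizer
  have h8N : 8 ∣ Nat.card ↥(normalizer (T : Set M)) := by
    have h3 := (normalizer (T : Set M)).card_mul_index
    have h4 : (normalizer (T : Set M)).index ∣ Nat.card Q := by
      have h5 : (normalizer (T : Set M)).index = (normalizer (T : Set M)).relIndex (normalizer (T : Set M) ⊔ Q) := by
        rw [hN, relIndex_top_right]
      rw [h5]
      have h6 : (normalizer (T : Set M)).relIndex (normalizer (T : Set M) ⊔ Q) ∣
          (normalizer (T : Set M) ⊓ Q).relIndex Q := by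
        have a1 := relIndex_mul_relIndex ⊥ (normalizer (T : Set M) ⊓ Q) Q bot_le inf_le_right
        have a2 := relIndex_mul_relIndex ⊥ (normalizer (T : Set M)) (normalizer (T : Set M) ⊔ Q) bot_le le_sup_left
        have a3 := relIndex_mul_relIndex ⊥ Q (normalizer (T : Set M) ⊔ Q) bot_le le_sup_right
        have a4 := relIndex_mul_relIndex ⊥ (normalizer (T : Set M) ⊓ Q) (normalizer (T : Set M)) bot_le inf_le_left
        rw [relIndex_sup_right] at a3
        rw [inf_comm, inf_relIndex_right] at a4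
        rw [inf_comm] at a1
        have hpos : 0 < (⊥ : Subgroup M).relIndex (Q ⊓ normalizer (T : Set M)) * Q.relIndex (normalizer (T : Set M)) := by
          rw [a4, relIndex_bot_left]; exact Nat.card_pos
        refine dvd_of_eq (Nat.eq_of_mul_eq_mul_left hpos ?_)
        rw [inf_comm (normalizer (T : Set M)) Q]
        calc (⊥ : Subgroup M).relIndex (Q ⊓ normalizer (T : Set M)) * Q.relIndex (normalizer (T : Set M)) *
              (normalizer (T : Set M)).relIndex (normalizer (T : Set M) ⊔ Q)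
            = (⊥ : Subgroup M).relIndex Q * Q.relIndex (normalizer (T : Set M)) := by rw [a4, a2, a3]
          _ = _ := by rw [← a1]; ring
      refine h6.trans ?_
      have h7 := relIndex_mul_relIndex ⊥ (normalizer (T : Set M) ⊓ Q) Q bot_le inf_le_right
      rw [relIndex_bot_left, relIndex_bot_left] at h7
      exact ⟨_, by rw [← h7, mul_comm]⟩
    have h5 : Nat.Coprime 8 (normalizer (T : Set M)).index := by
      rw [show (8 : ℕ) = 2 ^ 3 by norm_num]
      exact Nat.Coprime.pow_left 3 (Nat.coprime_two_left.2 (Odd.of_dvd_nat hQ h4))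
    rw [← h3] at h8
    exact h5.dvd_of_dvd_mul_right h8
  have hpel : ∀ x : T, ∃ k, (x : M) ^ 3 ^ k = 1 := by
    intro x
    refine ⟨4, ?_⟩
    have h3 : x ^ Nat.card T = 1 := pow_card_eq_one'
    rw [hcard] at h3
    rw [show (3 : ℕ) ^ 4 = 81 by norm_num]
    exact congrArg Subtype.val h3
  have horb : ∀ x : T, x ≠ 1 → 40 ≤ (MulAction.orbit ↥(normalizer (T : Set M)) x).ncard := by
    intro x hx
    have h3 := eight_dvd T h8N x (fun i hi h => hx (Subtype.ext (ha i hi x (hle x.2) (hpel x) h)))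
    have h4 := five_dvd Q hQ ha h1 h2 h12 T hcard hle hN hx
    have h5 : 8 * 5 ∣ Nat.card (MulAction.orbit ↥(normalizer (T : Set M)) x) :=
      Nat.Coprime.mul_dvd_of_dvd_of_dvd (by norm_num) h3 h4
    rw [← Nat.card_coe_set_eq]
    have hne : Nonempty (MulAction.orbit ↥(normalizer (T : Set M)) x) := ⟨⟨x, MulAction.mem_orbit_self x⟩⟩
    exact Nat.le_of_dvd Nat.card_pos h5
  have hdis : ∀ x z : T, ¬ IsConj (x : M) z → Disjoint (MulAction.orbit ↥(normalizer (T : Set M)) x)
      (MulAction.orbit ↥(normalizer (T : Set M)) z) := by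
    intro x z hxz
    rw [Set.disjoint_left]
    rintro u ⟨n, rfl⟩ ⟨m, hm⟩
    apply hxz
    have h3 := congrArg Subtype.val hm
    simp only [coe_smul] at h3
    have h4 : IsConj (x : M) (n * x * (n : M)⁻¹) := isConj_iff.2 ⟨n, rfl⟩
    have h5 : IsConj (z : M) (m * z * (m : M)⁻¹) := isConj_iff.2 ⟨m, rfl⟩
    rw [h3] at h5
    exact h4.trans h5.symm
  have hcj : ∀ {u v gu gv : M}, ¬ IsConj u v → ¬ IsConj (gu * u * gu⁻¹) (gv * v * gv⁻¹) := by
    intro u v gu gv h h'
    exact h (((isConj_iff.2 ⟨gu, rfl⟩ : IsConj u _).trans h').trans (isConj_iff.2 ⟨gv, rfl⟩ : IsConj v _).symm)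
  have hne1 : ∀ {u g : M}, u ≠ 1 → g * u * g⁻¹ ≠ 1 := by
    intro u g hu h
    exact hu (conj_eq_one_iff.1 h)
  have e1 := horb ⟨_, hgy⟩ (fun h => hne1 hy1 (congrArg Subtype.val h))
  have e2 := horb ⟨_, hgw⟩ (fun h => hne1 hw1 (congrArg Subtype.val h))
  have e3 := horb ⟨_, hgt⟩ (fun h => hne1 ht1 (congrArg Subtype.val h))
  have d1 := hdis ⟨_, hgy⟩ ⟨_, hgw⟩ (hcj hyw)
  have d2 := hdis ⟨_, hgy⟩ ⟨_, hgt⟩ (hcj hno.1)
  have d3 := hdis ⟨_, hgw⟩ ⟨_, hgt⟩ (hcj hno.2)
  have h3 := Set.ncard_union_eq d1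
  have h4 := Set.ncard_union_eq (Set.disjoint_union_left.2 ⟨d2, d3⟩)
  have h5 := Set.ncard_le_card (MulAction.orbit ↥(normalizer (T : Set M)) (⟨_, hgy⟩ : T) ∪
    MulAction.orbit ↥(normalizer (T : Set M)) (⟨_, hgw⟩ : T) ∪ MulAction.orbit ↥(normalizer (T : Set M)) (⟨_, hgt⟩ : T))
  rw [hcard] at h5
  omega

end Cfsg.Agent.H800.Wf.Orb
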